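import Cfsg.Prelude.Def_Local
import Cfsg.Agent.LocEven.SylowGraph
import Cfsg.Agent.PSolv.HallHigman
import Cfsg.Agent.Cores.Basic

/-! Invariance of `O_{p',p}` and of chain-connectedness under isomorphisms. -/

set_option autoImplicit false

namespace Cfsg.Agent.AlperinStrong

open Cfsg

variable {p : ℕ} {A B : Type*} [Group A] [Group B] [Finite A] [Finite B]

theorem map_pPrimePCore_le (e : A ≃* B) :
    (pPrimePCore p A).map e.toMonoidHom ≤ pPrimePCore p B := by
  haveI : (pPrimeCore p A).Normal := inferInstance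
  let g : A ⧸ pPrimeCore p A →* B ⧸ pPrimeCore p B :=
    QuotientGroup.map _ _ e.toMonoidHom (Subgroup.map_le_iff_le_comap.mp
      (PSolv.map_pPrimeCore_le e.toMonoidHom e.surjective))
  have hg : Function.Surjective g := by
    intro y
    obtain ⟨b, rfl⟩ := QuotientGroup.mk_surjective y
    exact ⟨QuotientGroup.mk (e.symm b), congrArg QuotientGroup.mk (e.apply_symm_apply b)⟩
  rintro _ ⟨x, hx, rfl⟩
  exact PSolv.map_pCore_le g hg ⟨_, hx, rfl⟩

theorem map_pPrimePCore (e : A ≃* B) :
    (pPrimePCore p A).map e.toMonoidHom = pPrimePCore p B := by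
  refine le_antisymm (map_pPrimePCore_le e) fun b hb => ?_
  exact ⟨e.symm b, map_pPrimePCore_le e.symm ⟨b, hb, rfl⟩, e.apply_symm_apply b⟩

theorem not_chainConnected_equiv [Fact p.Prime] (e : A ≃* B)
    (h : ¬ IsSylowChainConnected p A) : ¬ IsSylowChainConnected p B := by
  obtain ⟨H, hne, hpH, hH⟩ := LocEven.exists_sEmb_of_not_chainConnected h
  have hinj : Function.Injective e.toMonoidHom := e.injective
  refine LocEven.not_chainConnected_of_sEmb (H := H.map e.toMonoidHom) ?_ ?_ ?_
  · intro htop
    refine hne (Subgroup.map_injective hinj ?_)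
    rw [htop, ← MonoidHom.range_eq_map, MonoidHom.range_eq_top.mpr e.surjective]
  · rwa [Subgroup.card_map_of_injective hinj]
  · intro g hg
    obtain ⟨a, rfl⟩ := e.surjective g
    have ha : a ∉ H := fun ha => hg ⟨a, ha, rfl⟩
    have heq : (H.map e.toMonoidHom).map (MulAut.conj (e a)).toMonoidHom =
        (H.map (MulAut.conj a).toMonoidHom).map e.toMonoidHom := by
      rw [Subgroup.map_map, Subgroup.map_map]
      congr 1
      ext x
      simp
    rw [heq, ← Subgroup.map_inf _ _ _ hinj, Subgroup.card_map_of_injective hinj]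
    exact hH a ha

end Cfsg.Agent.AlperinStrong
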