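import Cfsg.Agent.AlperinStrong.Invariance
import Cfsg.Agent.Tech.AlperinGoldschmidt
import Cfsg.Agent.LocEven.SEmbNormal
import Cfsg.Agent.LocalP.Basic
import Cfsg.Agent.S3058

/-! The strong form of the Alperin–Goldschmidt conjugation theorem. -/

set_option autoImplicit false

namespace Cfsg.Agent.AlperinStrong

open Cfsg Cfsg.Agent.Fusion Cfsg.Agent.Tech
open scoped Pointwise

variable {G : Type*} [Group G] {p : ℕ}

/-- the conditions on a conjugation subgroup -/
def Ess (P : Sylow p G) (D : Subgroup G) : Prop :=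
  D ≤ (P : Subgroup G) ∧
  ¬ p ∣ ((P : Subgroup G) ⊓ Subgroup.normalizer (D : Set G)).relIndex
    (Subgroup.normalizer (D : Set G)) ∧
  (P : Subgroup G) ⊓ Subgroup.centralizer (D : Set G) ≤ D ∧
  (pPrimePCore p ↥(Subgroup.normalizer (D : Set G))).map (Subgroup.normalizer (D : Set G)).subtype =
    D ⊔ Subgroup.centralizer (D : Set G) ∧
  ¬ IsSylowChainConnected p
    (↥(Subgroup.normalizer (D : Set G)) ⧸ D.subgroupOf (Subgroup.normalizer (D : Set G)))

/-- `X/D` is the smallest normal subgroup of `N(D)/D` of order divisible by `p`. -/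
def IsSmallest (p : ℕ) (D X : Subgroup G) : Prop :=
  D ≤ X ∧ X ≤ Subgroup.normalizer (D : Set G) ∧
  (X.subgroupOf (Subgroup.normalizer (D : Set G))).Normal ∧ p ∣ D.relIndex X ∧
  ∀ Y : Subgroup G, D ≤ Y → Y ≤ Subgroup.normalizer (D : Set G) →
    (Y.subgroupOf (Subgroup.normalizer (D : Set G))).Normal → p ∣ D.relIndex Y → X ≤ Y

theorem cj_centralizer (w : G) (D : Subgroup G) :
    cj w (Subgroup.centralizer (D : Set G)) = Subgroup.centralizer (cj w D : Set G) := by
  ext x
  rw [mem_cj, Subgroup.mem_centralizer_iff, Subgroup.mem_centralizer_iff]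
  constructor
  · intro h y hy
    have h1 := h _ (mem_cj.mp hy)
    have h2 := congrArg (fun z => w * z * w⁻¹) h1
    simpa [mul_assoc] using h2
  · intro h y hy
    have h1 := h _ (conj_mem_cj.mpr hy)
    have h2 := congrArg (fun z => w⁻¹ * z * w) h1
    simpa [mul_assoc] using h2

theorem normal_in_cj {w : G} {D X : Subgroup G}
    (hXN : X ≤ Subgroup.normalizer (D : Set G))
    (h : (X.subgroupOf (Subgroup.normalizer (D : Set G))).Normal) :
    ((cj w X).subgroupOf (Subgroup.normalizer (cj w D : Set G))).Normal := by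
  have hle : cj w X ≤ Subgroup.normalizer (cj w D : Set G) := by
    rw [← cj_normalizer]; exact cj_mono w hXN
  rw [Subgroup.normal_subgroupOf_iff_le_normalizer hle, ← cj_normalizer, ← cj_normalizer]
  exact cj_mono w ((Subgroup.normal_subgroupOf_iff_le_normalizer hXN).mp h)

theorem relIndex_cj (w : G) (A B : Subgroup G) : (cj w A).relIndex (cj w B) = A.relIndex B :=
  Subgroup.relIndex_map_map_of_injective _ _ (MulAut.conj w).injective

theorem IsSmallest.conj {D X : Subgroup G} (h : IsSmallest p D X) (w : G) :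
    IsSmallest p (cj w D) (cj w X) := by
  obtain ⟨h1, h2, h3, h4, h5⟩ := h
  refine ⟨cj_mono w h1, by rw [← cj_normalizer]; exact cj_mono w h2, normal_in_cj h2 h3,
    by rw [relIndex_cj]; exact h4, fun Y hY1 hY2 hY3 hY4 => ?_⟩
  rw [cj_le_iff]
  refine h5 _ (by rwa [← cj_le_iff]) ?_ ?_ ?_
  · have := cj_mono w⁻¹ hY2
    rwa [cj_normalizer, cj_inv_cj] at this
  · have := normal_in_cj (w := w⁻¹) hY2 hY3
    rwa [cj_inv_cj] at this
  · rwa [← relIndex_cj w, cj_cj_inv]

variable [Finite G]

theorem Ess.conj [Fact p.Prime] {P : Sylow p G} {D : Subgroup G} (h : Ess P D) {w : G}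
    (hw : w ∈ Subgroup.normalizer ((P : Subgroup G) : Set G)) : Ess P (cj w D) := by
  obtain ⟨h1, h2, h3, h4, h5⟩ := h
  have hP : cj w (P : Subgroup G) = P := cj_eq_of_mem hw
  set N := Subgroup.normalizer (D : Set G) with hN
  let e : N ≃* ↥(Subgroup.normalizer (cj w D : Set G)) :=
    ((MulAut.conj w).subgroupMap N).trans (MulEquiv.subgroupCongr (cj_normalizer w D))
  have he : ∀ x : N, ((e x : ↥(Subgroup.normalizer (cj w D : Set G))) : G) = w * (x : G) * w⁻¹ :=
    fun _ => rfl
  refine ⟨by rw [← hP]; exact cj_mono w h1, ?_, ?_, ?_, ?_⟩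
  · rw [← cj_normalizer, ← hN, ← hP, ← cj_inf, relIndex_cj]; exact h2
  · rw [← cj_centralizer, ← hP, ← cj_inf]; exact cj_mono w h3
  · rw [← map_pPrimePCore e, ← cj_centralizer]
    conv_rhs => rw [cj, cj, ← Subgroup.map_sup, ← h4]
    rw [Subgroup.map_map, Subgroup.map_map]
    congr 1
  · refine not_chainConnected_equiv (QuotientGroup.congr _ _ e ?_) h5
    ext y
    constructor
    · rintro ⟨x, hx, rfl⟩
      show ((e x : _) : G) ∈ cj w D
      rw [he, conj_mem_cj]; exact hx
    · intro hy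
      refine ⟨e.symm y, ?_, e.apply_symm_apply y⟩
      show ((e.symm y : N) : G) ∈ D
      have := he (e.symm y)
      rw [e.apply_symm_apply] at this
      rw [← conj_mem_cj (g := w), ← this]
      exact hy

/-- A chain of strong steps carrying `A`. -/
inductive SChain (P : Sylow p G) : Subgroup G → G → Prop
  | nil (A : Subgroup G) : SChain P A 1
  | cons {A D X : Subgroup G} {x h : G} :
      Ess P D → IsSmallest p D X → x ∈ LocalP.resOf p X → A ≤ D → SChain P (cj x⁻¹ A) h →
        SChain P A (x * h)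

omit [Finite G] in
theorem SChain.mono {P : Sylow p G} {A : Subgroup G} {g : G} (h : SChain P A g) :
    ∀ {A' : Subgroup G}, A' ≤ A → SChain P A' g := by
  induction h with
  | nil A => intro A' _; exact .nil A'
  | cons h1 h2 h3 h4 _ ih =>
    intro A' hA'; exact .cons h1 h2 h3 (hA'.trans h4) (ih (cj_mono _ hA'))

omit [Finite G] in
theorem SChain.trans {P : Sylow p G} {A : Subgroup G} {a : G} (ha : SChain P A a) :
    ∀ {b : G}, SChain P (cj a⁻¹ A) b → SChain P A (a * b) := by
  induction ha with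
  | nil A => intro b hb; rw [one_mul]; rwa [inv_one, cj_one] at hb
  | @cons A D X x h h1 h2 h3 h4 _ ih =>
    intro b hb
    rw [mul_assoc]
    exact .cons h1 h2 h3 h4 (ih (by rwa [cj_cj, ← mul_inv_rev]))

theorem SChain.conj [Fact p.Prime] {P : Sylow p G} {A : Subgroup G} {g : G} (h : SChain P A g)
    {w : G} (hw : w ∈ Subgroup.normalizer ((P : Subgroup G) : Set G)) :
    SChain P (cj w A) (w * g * w⁻¹) := by
  induction h with
  | nil A => simpa using SChain.nil (P := P) (cj w A)
  | @cons A D X x h h1 h2 h3 h4 _ ih =>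
    rw [show w * (x * h) * w⁻¹ = (w * x * w⁻¹) * (w * h * w⁻¹) by group]
    refine .cons (h1.conj hw) (h2.conj w) ?_ (cj_mono w h4) ?_
    · rw [← LocalP.map_resOf_of_injective (f := (MulAut.conj w).toMonoidHom)
        (MulAut.conj w).injective]
      exact ⟨x, h3, rfl⟩
    · rw [cj_cj] at ih ⊢
      rwa [show (w * x * w⁻¹)⁻¹ * w = w * x⁻¹ by group]

/-- `g` is a chain up to a left factor centralizing `A` and a right factor normalizing `P`. -/
def SDec (P : Sylow p G) (A : Subgroup G) (g : G) : Prop :=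
  ∃ c h y : G, c ∈ Subgroup.centralizer (A : Set G) ∧ SChain P A h ∧
    y ∈ Subgroup.normalizer ((P : Subgroup G) : Set G) ∧ g = c * h * y

omit [Finite G] in
theorem SDec.mono {P : Sylow p G} {A A' : Subgroup G} {g : G} (h : SDec P A g) (hA : A' ≤ A) :
    SDec P A' g := by
  obtain ⟨c, x, y, hc, hx, hy, rfl⟩ := h
  exact ⟨c, x, y, Subgroup.centralizer_le hA hc, hx.mono hA, hy, rfl⟩

theorem SDec.trans [Fact p.Prime] {P : Sylow p G} {A : Subgroup G} {a b : G} (ha : SDec P A a)
    (hb : SDec P (cj a⁻¹ A) b) : SDec P A (a * b) := by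
  obtain ⟨c, h, y, hc, hh, hy, rfl⟩ := ha
  obtain ⟨d, k, z, hd, hk, hz, rfl⟩ := hb
  have he : cj (c * h * y)⁻¹ A = cj (h * y)⁻¹ A := by
    rw [mul_assoc c, mul_inv_rev, ← cj_cj, AG.cj_eq_of_mem_centralizer (Subgroup.inv_mem _ hc)]
  rw [he] at hd hk
  refine ⟨c * ((h * y) * d * (h * y)⁻¹), h * (y * k * y⁻¹), y * z, mul_mem hc ?_, hh.trans ?_,
    mul_mem hy hz, by group⟩
  · have h1 : (h * y) * d * (h * y)⁻¹ ∈
        cj (h * y) (Subgroup.centralizer (cj (h * y)⁻¹ A : Set G)) := conj_mem_cj.mpr hd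
    rwa [cj_centralizer, cj_cj_inv] at h1
  · have h2 := hk.conj hy
    rwa [cj_cj, show y * (h * y)⁻¹ = h⁻¹ by group] at h2

theorem sdec_of_gchain [Fact p.Prime] {P : Sylow p G} {k : ℕ}
    (IH : ∀ D, AG.Good P D → k < Nat.card D →
      ∀ x ∈ Subgroup.normalizer (D : Set G), SDec P D x)
    {A : Subgroup G} {g : G} (h : AG.GChain P A g) : k < Nat.card A → SDec P A g := by
  induction h with
  | @single A D x h1 h2 h3 =>
    intro hk
    exact (IH D h1 (hk.trans_le (Subgroup.card_le_of_le h3)) x h2).mono h3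
  | @step A D x y h1 h2 h3 _ ih =>
    intro hk
    exact ((IH D h1 (hk.trans_le (Subgroup.card_le_of_le h3)) x h2).mono h3).trans
      (ih (by rwa [card_cj]))

theorem sdec_of_large [Fact p.Prime] {P : Sylow p G} {k : ℕ}
    (IH : ∀ D, AG.Good P D → k < Nat.card D →
      ∀ x ∈ Subgroup.normalizer (D : Set G), SDec P D x)
    {A : Subgroup G} {g : G} (hA : A ≤ (P : Subgroup G)) (hg : cj g⁻¹ A ≤ (P : Subgroup G))
    (hk : k < Nat.card A) : SDec P A g := by
  obtain ⟨c, h, hc, hh, rfl⟩ := AG.exists_dec P hA hg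
  obtain ⟨d, m, y, hd, hm, hy, rfl⟩ := sdec_of_gchain IH hh hk
  exact ⟨c * d, m, y, mul_mem hc hd, hm, hy, by group⟩

theorem good_facts [Fact p.Prime] {P : Sylow p G} {D : Subgroup G} (h : AG.Good P D) :
    (P : Subgroup G) ⊓ Subgroup.centralizer (D : Set G) ≤ D ∧
    (pPrimePCore p ↥(Subgroup.normalizer (D : Set G))).map
      (Subgroup.normalizer (D : Set G)).subtype = D ⊔ Subgroup.centralizer (D : Set G) := by
  obtain ⟨hDP, hC, ⟨-, hDM, hcomm, -, hsup⟩, -⟩ := h
  set N := Subgroup.normalizer (D : Set G) with hN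
  have hO : (pPrimeCore p N).map N.subtype ≤ Subgroup.centralizer (D : Set G) := fun o ho d hd =>
    (hcomm o ho d hd).symm
  refine ⟨?_, le_antisymm ?_ (sup_le hDM hC)⟩
  · intro z hz
    have h1 := hC hz.2
    rw [← hsup] at h1
    have hn : D ≤ Subgroup.normalizer ((pPrimeCore p N).map N.subtype : Set G) := by
      intro d hd
      refine Subgroup.mem_normalizer_iff.mpr fun o => ⟨fun ho => ?_, fun ho => ?_⟩
      · rw [← hcomm o ho d hd, mul_inv_cancel_right]; exact ho
      · have hc := hcomm _ ho d⁻¹ (inv_mem hd)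
        have he : o = d * o * d⁻¹ := by
          calc o = d⁻¹ * (d * o * d⁻¹) * d := by group
            _ = (d * o * d⁻¹) * d⁻¹ * d := by rw [← hc]
            _ = d * o * d⁻¹ := by group
        rw [he]; exact ho
    rw [← SetLike.mem_coe, Subgroup.coe_mul_of_right_le_normalizer_left _ _ hn] at h1
    obtain ⟨o, ho, d, hd, rfl⟩ := h1
    have hoP : o ∈ (P : Subgroup G) := by
      have hz1 : o * d ∈ (P : Subgroup G) := hz.1
      simpa using mul_mem hz1 (inv_mem (hDP hd : d ∈ (P : Subgroup G)))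
    obtain ⟨o', ho', rfl⟩ := ho
    have h4 : o' = 1 := eq_one_of_mem_pPrimeCore_of_isPGroup
      (H := (P : Subgroup G).subgroupOf N) (P.2.comap_subtype) (x := o') hoP ho'
    simpa [h4] using hd
  · rw [← hsup]; exact sup_le (le_sup_of_le_right hO) le_sup_left

theorem exists_smallest [Fact p.Prime] {D : Subgroup G}
    (hcc : ¬ IsSylowChainConnected p
      (↥(Subgroup.normalizer (D : Set G)) ⧸ D.subgroupOf (Subgroup.normalizer (D : Set G))))
    (hp : p ∣ Nat.card (↥(Subgroup.normalizer (D : Set G)) ⧸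
      D.subgroupOf (Subgroup.normalizer (D : Set G)))) :
    ∃ X, IsSmallest p D X ∧ ∃ Xb : Subgroup (↥(Subgroup.normalizer (D : Set G)) ⧸
        D.subgroupOf (Subgroup.normalizer (D : Set G))), Xb.Normal ∧ p ∣ Nat.card Xb ∧
      X = (Xb.comap (QuotientGroup.mk' _)).map (Subgroup.normalizer (D : Set G)).subtype := by
  classical
  set N := Subgroup.normalizer (D : Set G) with hN
  set Q := ↥N ⧸ D.subgroupOf N
  let S : Set (Subgroup Q) := {L | L.Normal ∧ p ∣ Nat.card L}
  obtain ⟨L, hL⟩ := (Set.toFinite S).exists_minimal ⟨⊤, Subgroup.normal_of_characteristic ⊤,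
    by rw [Subgroup.card_top]; exact hp⟩
  have hmin : ∀ M ∈ S, L ≤ M := by
    intro M hM
    haveI := hL.1.1
    haveI := hM.1
    have h := S3058.result p hcc L M hL.1.2 hM.2
    exact (hL.2 (y := L ⊓ M) ⟨inferInstance, h⟩ inf_le_left).trans inf_le_right
  set f := QuotientGroup.mk' (D.subgroupOf N) with hf
  have hker : f.ker = D.subgroupOf N := QuotientGroup.ker_mk' _
  have hcard : ∀ (Y : Subgroup G), Y ≤ N →
      D.relIndex Y = Nat.card ((Y.subgroupOf N).map f) := by
    intro Y hY
    rw [← Subgroup.relIndex_ker (f := f), hker, Subgroup.relIndex_subgroupOf hY]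
  refine ⟨(L.comap f).map N.subtype, ⟨?_, Subgroup.map_subtype_le _, ?_, ?_, ?_⟩,
    L, hL.1.1, hL.1.2, rfl⟩
  · intro d hd
    refine ⟨⟨d, Subgroup.le_normalizer hd⟩, ?_, rfl⟩
    show f _ ∈ L
    rw [(MonoidHom.mem_ker).mp (hker.ge hd)]
    exact one_mem L
  · rw [Subgroup.subgroupOf, Subgroup.comap_map_eq_self_of_injective N.subtype_injective]
    exact hL.1.1.comap _
  · have hsub : ((L.comap f).map N.subtype).subgroupOf N = L.comap f :=
      Subgroup.comap_map_eq_self_of_injective N.subtype_injective _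
    rw [hcard _ (Subgroup.map_subtype_le _), hsub,
      Subgroup.map_comap_eq_self_of_surjective (QuotientGroup.mk'_surjective _)]
    exact hL.1.2
  · intro Y hDY hYN hYn hYp
    have hmem : (Y.subgroupOf N).map f ∈ S :=
      ⟨hYn.map f (QuotientGroup.mk'_surjective _), by rw [← hcard Y hYN]; exact hYp⟩
    rintro _ ⟨x, hx, rfl⟩
    have hx' : x ∈ ((Y.subgroupOf N).map f).comap f := hmin _ hmem hx
    rw [Subgroup.comap_map_eq, hker, sup_of_le_left (fun z hz => hDY hz)] at hx'
    exact hx'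

theorem sdec_of_good [Fact p.Prime] (P : Sylow p G) :
    ∀ D, AG.Good P D → ∀ x ∈ Subgroup.normalizer (D : Set G), SDec P D x := by
  classical
  suffices ∀ (j : ℕ) (D : Subgroup G), AG.Good P D →
      Nat.card (P : Subgroup G) < Nat.card D + j →
      ∀ x ∈ Subgroup.normalizer (D : Set G), SDec P D x from
    fun D hD => this (Nat.card (P : Subgroup G) + 1) D hD
      (by have := Nat.card_pos (α := D); omega)
  intro j
  induction j with
  | zero =>
    intro D hD hj
    have := Subgroup.card_le_of_le hD.1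
    omega
  | succ j ih =>
    intro D hD hj
    set N := Subgroup.normalizer (D : Set G) with hN
    by_cases hDP : D = (P : Subgroup G)
    · intro x hx
      exact ⟨1, 1, x, one_mem _, .nil D, by rw [← hDP]; exact hx, by group⟩
    have IH : ∀ D', AG.Good P D' → Nat.card D < Nat.card D' →
        ∀ x ∈ Subgroup.normalizer (D' : Set G), SDec P D' x :=
      fun D' hD' hlt => ih D' hD' (by omega)
    have hbig : ∀ (U : Subgroup G) (g : G), D < U → U ≤ (P : Subgroup G) →
        cj g⁻¹ U ≤ (P : Subgroup G) → SDec P D g := fun U g hlt hU hg =>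
      (sdec_of_large IH hU hg (card_lt_card hlt)).mono hlt.le
    have hmul : ∀ a b, a ∈ N → SDec P D a → SDec P D b → SDec P D (a * b) := by
      intro a b ha hda hdb
      refine hda.trans ?_
      rwa [cj_eq_of_mem (inv_mem ha)]
    have hone : SDec P D 1 := ⟨1, 1, 1, one_mem _, .nil D, one_mem _, by group⟩
    let M : Subgroup G :=
      { carrier := {x | x ∈ N ∧ SDec P D x}
        one_mem' := ⟨one_mem _, hone⟩
        mul_mem' := fun {a b} ha hb => ⟨mul_mem ha.1 hb.1, hmul a b ha.1 ha.2 hb.2⟩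
        inv_mem' := fun {a} ha => by
          have hpow : ∀ m : ℕ, a ^ m ∈ N ∧ SDec P D (a ^ m) := by
            intro m
            induction m with
            | zero => rw [pow_zero]; exact ⟨one_mem _, hone⟩
            | succ m ihm =>
              rw [pow_succ]
              exact ⟨mul_mem ihm.1 ha.1, hmul _ _ ihm.1 ihm.2 ha.2⟩
          have he : a⁻¹ = a ^ (orderOf a - 1) := by
            refine inv_eq_of_mul_eq_one_right ?_
            rw [← pow_succ', Nat.sub_add_cancel (orderOf_pos a), pow_orderOf_eq_one]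
          exact he ▸ hpow _ }
    suffices hMN : N ≤ M from fun x hx => (hMN hx).2
    by_contra hMN
    set S := (P : Subgroup G) ⊓ N with hS
    have hDS : D < S := lt_normalizer_inf P.2 (lt_of_le_of_ne hD.1 hDP)
    have hSM : S ≤ M := fun s hs => ⟨hs.2, ⟨1, 1, s, one_mem _, .nil D,
      Subgroup.le_normalizer hs.1, by group⟩⟩
    have hMle : M ≤ N := fun x hx => hx.1
    set Q := ↥N ⧸ D.subgroupOf N
    set f := QuotientGroup.mk' (D.subgroupOf N) with hf
    have hfs : Function.Surjective f := QuotientGroup.mk'_surjective _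
    have hker : f.ker = D.subgroupOf N := QuotientGroup.ker_mk' _
    set Hb := (M.subgroupOf N).map f with hHb
    have hcomap : Hb.comap f = M.subgroupOf N := by
      rw [Subgroup.comap_map_eq_self]
      rw [hker]
      exact fun z hz => hSM (hDS.le hz)
    have hsyl := hD.2.2.2
    rw [Subgroup.inf_relIndex_right] at hsyl
    let SN : Sylow p N := (P.2.comap_subtype (K := N)).toSylow hsyl
    have hSNcoe : (SN : Subgroup N) = (P : Subgroup G).subgroupOf N := rfl
    let Sb : Sylow p Q := SN.mapSurjective hfs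
    have hSbcoe : (Sb : Subgroup Q) = ((P : Subgroup G).subgroupOf N).map f := by
      rw [Sylow.coe_mapSurjective, hSNcoe]
    have hSbH : (Sb : Subgroup Q) ≤ Hb := by
      rw [hSbcoe]
      exact Subgroup.map_mono fun z hz => hSM ⟨hz, z.2⟩
    have hpSb : p ∣ Nat.card (Sb : Subgroup Q) := by
      have hne : (Sb : Subgroup Q) ≠ ⊥ := by
        intro hb
        obtain ⟨z, hz, hzD⟩ := SetLike.exists_of_lt hDS
        refine hzD ?_
        have h1 : f ⟨z, hz.2⟩ ∈ (⊥ : Subgroup Q) := by
          rw [← hb, hSbcoe]; exact ⟨⟨z, hz.2⟩, hz.1, rfl⟩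
        rw [Subgroup.mem_bot, ← MonoidHom.mem_ker, hker] at h1
        exact h1
      obtain ⟨a, ha, -, hap⟩ := LocEven.exists_orderOf_of_ne_bot Sb.2 hne
      exact hap.trans (Subgroup.orderOf_mk (H := (Sb : Subgroup Q)) a ha ▸ orderOf_dvd_natCard _)
    have hpQ : p ∣ Nat.card Q := hpSb.trans (Subgroup.card_subgroup_dvd_card _)
    have hpHb : p ∣ Nat.card Hb := hpSb.trans (Subgroup.card_dvd_of_le hSbH)
    have hne : Hb ≠ ⊤ := by
      intro htop
      refine hMN fun x hx => ?_
      have h1 : (⟨x, hx⟩ : N) ∈ Hb.comap f := by rw [htop]; exact Subgroup.mem_top _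
      rw [hcomap] at h1
      exact h1
    -- elements fusing nontrivial elements of the Sylow subgroup lie in `Hb`
    have hfus : ∀ (a g : Q), a ∈ (Sb : Subgroup Q) → a ≠ 1 → g⁻¹ * a * g ∈ (Sb : Subgroup Q) →
        g ∈ Hb := by
      intro a g ha ha1 hag
      rw [hSbcoe] at ha hag
      obtain ⟨g', rfl⟩ := hfs g
      obtain ⟨z, hz, rfl⟩ := ha
      obtain ⟨z', hz', he⟩ := hag
      have hzD : (z : G) ∉ D := fun h => ha1 ((MonoidHom.mem_ker).mp (hker.ge h))
      have hk : z'⁻¹ * (g'⁻¹ * z * g') ∈ D.subgroupOf N := by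
        rw [← hker, MonoidHom.mem_ker, map_mul, map_inv, map_mul, map_mul, map_inv, he]; group
      have hconj : (g' : G)⁻¹ * z * g' ∈ (P : Subgroup G) := by
        have h2 := mul_mem (show (z' : G) ∈ (P : Subgroup G) from hz') (hD.1 hk)
        simpa using h2
      refine ⟨g', ⟨g'.2, hbig (D ⊔ Subgroup.zpowers (z : G)) g' ?_ ?_ ?_⟩, rfl⟩
      · exact lt_of_le_not_ge le_sup_left fun hle =>
          hzD (hle (Subgroup.mem_sup_right (Subgroup.mem_zpowers _)))
      · exact sup_le hD.1 (Subgroup.zpowers_le.mpr hz)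
      · rw [cj, Subgroup.map_sup]
        refine sup_le ?_ ?_
        · show cj (g' : G)⁻¹ D ≤ _
          rw [cj_eq_of_mem (inv_mem g'.2)]; exact hD.1
        · rw [MonoidHom.map_zpowers, Subgroup.zpowers_le]
          simpa using hconj
    have hSE : LocEven.SEmb p Hb := by
      intro g hg hdvd
      apply hg
      obtain ⟨a, ha⟩ := exists_prime_orderOf_dvd_card' p hdvd
      have haQ : orderOf (a : Q) = p := by rw [Subgroup.orderOf_coe, ha]
      obtain ⟨b, hb, hba⟩ := a.2.2
      have hbo : orderOf b = p := by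
        rw [← haQ, ← hba]; exact ((MulAut.conj g).orderOf_eq b).symm
      have key : ∀ z : Q, z ∈ Hb → orderOf z = p →
          ∃ h ∈ Hb, h⁻¹ * z * h ∈ (Sb : Subgroup Q) := by
        intro z hz hzo
        obtain ⟨T, hT⟩ := IsPGroup.exists_le_sylow (p := p) (G := ↥Hb)
          (P := Subgroup.zpowers (⟨z, hz⟩ : Hb))
          (IsPGroup.of_card (n := 1) (by rw [Nat.card_zpowers, Subgroup.orderOf_mk, hzo, pow_one]))
        obtain ⟨k, hk⟩ := MulAction.exists_smul_eq ↥Hb (Sb.subtype hSbH) T
        refine ⟨k, k.2, ?_⟩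
        have h1 : (⟨z, hz⟩ : Hb) ∈ ((k • Sb.subtype hSbH : Sylow p Hb) : Subgroup Hb) :=
          hk ▸ hT (Subgroup.mem_zpowers _)
        rw [coe_smul_sylow, mem_cj] at h1
        simpa [Subgroup.mem_subgroupOf] using h1
      obtain ⟨h, hh, hah⟩ := key a a.2.1 haQ
      obtain ⟨k, hk, hbk⟩ := key b hb hbo
      have hmem : h⁻¹ * g * k ∈ Hb := by
        refine hfus (h⁻¹ * a * h) _ hah ?_ ?_
        · intro h1
          have : (a : Q) = 1 := by
            have h2 := congrArg (fun t => h * t * h⁻¹) h1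
            simpa [mul_assoc] using h2
          rw [this, orderOf_one] at haQ
          exact (Fact.out : p.Prime).one_lt.ne haQ
        · convert hbk using 1
          rw [← hba]
          simp [mul_assoc]
      have := mul_mem (mul_mem hh hmem) (inv_mem hk)
      simpa [mul_assoc] using this
    have hcc := LocEven.not_chainConnected_of_sEmb hne hpHb hSE
    obtain ⟨h1, h2⟩ := good_facts hD
    have hEss : Ess P D := ⟨hD.1, hD.2.2.2, h1, h2, hcc⟩
    obtain ⟨X, hX, Xb, hXbn, hXbp, hXdef⟩ := exists_smallest hcc hpQ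
    -- the residual of `X` lies in `M`
    have hres : LocalP.resOf p X ≤ M := fun o ho => by
      have hoN : o ∈ N := hX.2.1 (LocalP.resOf_le X ho)
      refine ⟨hoN, ⟨1, o * 1, 1, one_mem _, .cons hEss hX ho le_rfl (.nil _), one_mem _, by group⟩⟩
    haveI := hX.2.2.1
    have hSX : ¬ p ∣ ((P : Subgroup G) ⊓ X).relIndex X :=
      AG.not_dvd_relIndex_of_normal_in P hD.2.2.2 hX.2.1
    have hXM : X ≤ M := by
      rw [← LocalP.resOf_sup_eq inf_le_right hSX]
      exact sup_le hres fun z hz => hSM ⟨hz.1, hX.2.1 hz.2⟩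
    haveI := hXbn
    have htop := hSE.sup_normal_eq_top Sb hSbH Xb hXbp
    refine hne (top_le_iff.mp (htop.ge.trans (sup_le le_rfl ?_)))
    intro q hq
    obtain ⟨x, rfl⟩ := hfs q
    exact ⟨x, hXM (hXdef.ge ⟨x, hq, rfl⟩), rfl⟩

theorem exists_sdec [Fact p.Prime] (P : Sylow p G) {A : Subgroup G} {g : G}
    (hA : A ≤ (P : Subgroup G)) (hg : cj g⁻¹ A ≤ (P : Subgroup G)) : SDec P A g :=
  sdec_of_large (k := 0) (fun D hD _ => sdec_of_good P D hD) hA hg Nat.card_pos

omit [Finite G] in
theorem SChain.exists_fin {P : Sylow p G} {D : Subgroup G} {g : G} (h : SChain P D g) :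
    ∀ {A : Set G}, A ⊆ (D : Set G) →
    ∃ (n : ℕ) (H X : Fin n → Subgroup G) (x : Fin n → G), (List.ofFn x).prod = g ∧
      (∀ i : Fin n, Ess P (H i) ∧ IsSmallest p (H i) (X i) ∧ x i ∈ LocalP.resOf p (X i)) ∧
      ∀ i : Fin n, (fun a => (((List.ofFn x).take i.val).prod)⁻¹ * a *
          ((List.ofFn x).take i.val).prod) '' A ⊆ (H i : Set G) := by
  induction h with
  | nil A' => intro A _; exact ⟨0, Fin.elim0, Fin.elim0, Fin.elim0, by simp, fun i => i.elim0, fun i => i.elim0⟩
  | @cons A' D X x y h1 h2 h3 h4 _ ih =>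
    intro A hA
    have hA' : (fun a => x⁻¹ * a * x) '' A ⊆ ((cj x⁻¹ A' : Subgroup G) : Set G) := by
      rintro _ ⟨a, ha, rfl⟩
      rw [SetLike.mem_coe, mem_cj_inv]
      simpa [mul_assoc] using hA ha
    obtain ⟨n, Q, Y, f, hf, hprop, hinc⟩ := ih hA'
    refine ⟨n + 1, Fin.cons D Q, Fin.cons X Y, Fin.cons x f, ?_, ?_, ?_⟩
    · rw [List.ofFn_cons, List.prod_cons, hf]
    · intro i
      induction i using Fin.cases with
      | zero => simp only [Fin.cons_zero]; exact ⟨h1, h2, h3⟩
      | succ j => simpa using hprop j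
    · intro i
      induction i using Fin.cases with
      | zero =>
        rintro _ ⟨a, ha, rfl⟩
        simp only [Fin.val_zero, List.take_zero, List.prod_nil, inv_one, one_mul, mul_one,
          Fin.cons_zero]
        exact h4 (hA ha)
      | succ j =>
        rintro _ ⟨a, ha, rfl⟩
        simp only [Fin.val_succ, List.ofFn_cons, List.take_succ_cons, List.prod_cons,
          Fin.cons_succ]
        refine hinc j ⟨x⁻¹ * a * x, ⟨a, ha, rfl⟩, ?_⟩
        simp [mul_assoc]

end Cfsg.Agent.AlperinStrong
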